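import Mathlib
import Cfsg.Agent.S4134
import Cfsg.Agent.Lib.Helper41.CS3.GoodDefs
import Cfsg.Agent.Lib.Helper10.CS3.EndCent

/-!
# CS3 (S4284), part GOOD, package ITO: if `N` is not abelian, Ito's theorem on `N`
gives the configuration `C(a) = Sa × T × B`.
-/

set_option autoImplicit false

namespace Cfsg.Agent.Lib.Helper5.CS3

open Cfsg.Agent.Lib.Helper81.CS3 Cfsg.Agent.Lib.Helper41.CS3

universe u

variable {G : Type u} [Group G]

theorem ito_cent_sub (N : Subgroup G) (x : N) :
    Subgroup.centralizer ({x} : Set N) =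
      (Subgroup.centralizer ({(x : G)} : Set G)).subgroupOf N := by
  ext g
  rw [Subgroup.mem_centralizer_singleton_iff, Subgroup.mem_subgroupOf,
    Subgroup.mem_centralizer_singleton_iff]
  constructor
  · intro h
    have := congrArg Subtype.val h
    simpa using this
  · intro h
    exact Subtype.ext (by simpa using h)

theorem ito_card_inf_mul_relIndex (K L : Subgroup G) :
    Nat.card (K ⊓ L : Subgroup G) * K.relIndex L = Nat.card L := by
  have h := Subgroup.relIndex_inf_mul_relIndex (⊥ : Subgroup G) K L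
  rwa [bot_inf_eq, Subgroup.relIndex_bot_left, Subgroup.relIndex_bot_left] at h

theorem ito_cn_one : Subgroup.centralizer ({(1 : G)} : Set G) = ⊤ := by
  rw [Subgroup.centralizer_eq_top_iff_subset]
  intro x hx
  rw [Set.mem_singleton_iff.mp hx]
  exact Subgroup.one_mem _

/-- product formula for commuting subgroups with trivial intersection. -/
theorem ito_card_sup [Finite G] (Q L : Subgroup G) (hcomm : ∀ q ∈ Q, ∀ l ∈ L, q * l = l * q)
    (hinf : Q ⊓ L = ⊥) : Nat.card (Q ⊔ L : Subgroup G) = Nat.card Q * Nat.card L := by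
  have hnorm : ∀ l ∈ L, ∀ q ∈ Q, l * q * l⁻¹ ∈ Q := by
    intro l hl q hq
    have : l * q * l⁻¹ = q := by rw [← hcomm q hq l hl]; group
    rw [this]; exact hq
  have h := Cfsg.Agent.Lib.Helper10.CS3.pkgCent Q L hnorm hinf 1 L.one_mem
  rwa [ito_cn_one, top_inf_eq, top_inf_eq, top_inf_eq] at h

theorem ito_ab_sup {A B : Subgroup G} (hA : Ab A) (hB : Ab B) (hAB : Comm A B) :
    Ab (A ⊔ B) := by
  have key : ∀ x : G, (∀ a ∈ A, a * x = x * a) → (∀ b ∈ B, b * x = x * b) →
      ∀ g ∈ A ⊔ B, g * x = x * g := by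
    intro x ha hb g hg
    have hle : A ⊔ B ≤ Subgroup.centralizer ({x} : Set G) :=
      sup_le (fun a h => Subgroup.mem_centralizer_singleton_iff.mpr (ha a h))
        (fun b h => Subgroup.mem_centralizer_singleton_iff.mpr (hb b h))
    exact Subgroup.mem_centralizer_singleton_iff.mp (hle hg)
  intro x hx y hy
  have hyA : ∀ a ∈ A, a * y = y * a := fun a ha =>
    (key a (fun a' ha' => hA a' ha' a ha) (fun b hb => (hAB a ha b hb).symm) y hy).symm
  have hyB : ∀ b ∈ B, b * y = y * b := fun b hb =>
    (key b (fun a ha => hAB a ha b hb) (fun b' hb' => hB b' hb' b hb) y hy).symm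
  exact key y hyA hyB x hx

theorem pkgIto : PkgIto.{u} := by
  intro G _ _ m n hyp s a Sa N hgood hdec hnab
  have hn1 : 1 < n := hyp.2.2.1
  have hcop : m.Coprime n := hyp.2.2.2.1
  -- class sizes in `N`
  have hrel : ∀ y ∈ N, (Subgroup.centralizer ({y} : Set G)).relIndex N = 1 ∨
      (Subgroup.centralizer ({y} : Set G)).relIndex N = n := by
    intro y hy
    have h1 := ito_card_inf_mul_relIndex (Subgroup.centralizer ({y} : Set G)) N
    have hpos : 0 < Nat.card (Subgroup.centralizer ({y} : Set G) ⊓ N : Subgroup G) :=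
      Nat.card_pos
    rcases hdec.cls y hy with h | h
    · left
      exact Nat.eq_of_mul_eq_mul_left hpos (by rw [mul_one, h1]; exact h)
    · right
      exact Nat.eq_of_mul_eq_mul_left hpos (by rw [h1, h, mul_comm])
  have hidxN : ∀ x : N, (Subgroup.centralizer ({x} : Set N)).index = 1 ∨
      (Subgroup.centralizer ({x} : Set N)).index = n := by
    intro x
    rw [ito_cent_sub]
    exact hrel x x.2
  have hex : ∃ x : N, (Subgroup.centralizer ({x} : Set N)).index = n := by
    have hne : ∃ x ∈ N, ∃ y ∈ N, x * y ≠ y * x := by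
      by_contra hcon
      push Not at hcon
      exact hnab hcon
    obtain ⟨x, hx, y, hy, hxy⟩ := hne
    refine ⟨⟨x, hx⟩, ?_⟩
    rw [ito_cent_sub]
    rcases hrel x hx with h | h
    · exfalso
      have hle : N ≤ Subgroup.centralizer ({x} : Set G) := Subgroup.relIndex_eq_one.mp h
      exact hxy (Subgroup.mem_centralizer_singleton_iff.mp (hle hy)).symm
    · exact h
  obtain ⟨t, htp, e, hne, hP⟩ := Cfsg.Agent.S4134.result (G := N) n hn1 hidxN hex
  have htp' : t.Prime := htp.out
  obtain ⟨P⟩ := (inferInstance : Nonempty (Sylow t N))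
  obtain ⟨hPn, ⟨N', hN'n, hcompl, hN'c, hN'P⟩, -⟩ := hP P
  have hTN : (P : Subgroup N).map N.subtype ≤ N := Subgroup.map_subtype_le _
  have hBN : N'.map N.subtype ≤ N := Subgroup.map_subtype_le _
  have hTB : (P : Subgroup N).map N.subtype ⊔ N'.map N.subtype = N := by
    rw [← Subgroup.map_sup, sup_comm (P : Subgroup N) N', hcompl.sup_eq_top,
      ← MonoidHom.range_eq_map, Subgroup.range_subtype]
  have hcardB : Nat.card (N'.map N.subtype) = Nat.card N' :=
    Subgroup.card_map_of_injective N.subtype_injective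
  have hTp : IsPGroup t ((P : Subgroup N).map N.subtype) := P.isPGroup'.map N.subtype
  have hBt : (Nat.card (N'.map N.subtype)).Coprime t := by
    rw [hcardB]
    have h1 : (P : Subgroup N).index = Nat.card N' := hcompl.index_eq_card
    have h2 : ¬ t ∣ (P : Subgroup N).index := P.not_dvd_index
    rw [h1] at h2
    exact ((Nat.Prime.coprime_iff_not_dvd htp').mpr h2).symm
  have hcomTB : Comm ((P : Subgroup N).map N.subtype) (N'.map N.subtype) := by
    intro x hx y hy
    obtain ⟨x', hx', rfl⟩ := Subgroup.mem_map.mp hx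
    obtain ⟨y', hy', rfl⟩ := Subgroup.mem_map.mp hy
    have h1 := hN'P y' hy' x' hx'
    have h2 := congrArg Subtype.val h1
    simpa using h2.symm
  have hBab : Ab (N'.map N.subtype) := by
    intro x hx y hy
    obtain ⟨x', hx', rfl⟩ := Subgroup.mem_map.mp hx
    obtain ⟨y', hy', rfl⟩ := Subgroup.mem_map.mp hy
    have h1 : (⟨x', hx'⟩ : N') * ⟨y', hy'⟩ = ⟨y', hy'⟩ * ⟨x', hx'⟩ := hN'c.is_comm.comm _ _
    have h2 := congrArg (fun z : N' => ((z : N) : G)) h1
    simpa using h2
  have hsp : s.Prime := hgood.sp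
  have hfs : Fact s.Prime := ⟨hsp⟩
  obtain ⟨ks, hks⟩ := (IsPGroup.iff_card (p := s) (G := Sa)).mp hdec.pS
  have htn : t ∣ n := by
    rw [hne]
    exact dvd_pow_self t (by rintro rfl; rw [pow_zero] at hne; omega)
  have htm : ¬ t ∣ m := by
    intro h
    have h1 := Nat.dvd_gcd h htn
    rw [Nat.Coprime.gcd_eq_one hcop] at h1
    exact htp'.one_lt.ne' (Nat.dvd_one.mp h1)
  have hts : t ≠ s := by rintro rfl; exact htm hgood.sm
  have hSaN : Sa ⊓ N = ⊥ := (Subgroup.disjoint_of_coprime_natCard
    (by rw [hks]; exact (Nat.Coprime.pow_right ks hdec.cop).symm)).eq_bot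
  have hcardH : Nat.card (Subgroup.centralizer ({a} : Set G)) = Nat.card Sa * Nat.card N := by
    have h1 := ito_card_sup Sa N hdec.comm hSaN
    have h2 : Sa ⊔ N = Subgroup.centralizer ({a} : Set G) := hdec.sup
    rwa [h2] at h1
  have hNH : N ≤ Subgroup.centralizer ({a} : Set G) := by
    have h2 : Sa ⊔ N = Subgroup.centralizer ({a} : Set G) := hdec.sup
    rw [← h2]; exact le_sup_right
  have hrelN : N.relIndex (Subgroup.centralizer ({a} : Set G)) = Nat.card Sa := by
    have h1 := ito_card_inf_mul_relIndex N (Subgroup.centralizer ({a} : Set G))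
    rw [inf_eq_left.mpr hNH, hcardH, mul_comm (Nat.card Sa)] at h1
    exact Nat.eq_of_mul_eq_mul_left Nat.card_pos h1
  have hNidx : N.index = Nat.card Sa * m := by
    have h1 := Subgroup.relIndex_mul_index hNH
    have h2 : (Subgroup.centralizer ({a} : Set G)).index = m := hgood.ixa
    rw [hrelN, h2] at h1
    exact h1.symm
  have hsylT : ¬ t ∣ ((P : Subgroup N).map N.subtype).index := by
    rw [Subgroup.index_map_subtype, hNidx, hks]
    intro h
    rcases (Nat.Prime.dvd_mul htp').mp h with h | h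
    · exact P.not_dvd_index h
    · rcases (Nat.Prime.dvd_mul htp').mp h with h | h
      · exact hts ((Nat.prime_dvd_prime_iff_eq htp' hsp).mp (htp'.dvd_of_dvd_pow h))
      · exact htm h
  have hnabT : ¬ Ab ((P : Subgroup N).map N.subtype) := by
    intro hTab
    have h := ito_ab_sup hTab hBab hcomTB
    rw [hTB] at h
    exact hnab h
  have hBT : N'.map N.subtype ⊓ (P : Subgroup N).map N.subtype = ⊥ :=
    (Subgroup.disjoint_of_coprime_natCard (by
      obtain ⟨kt, hkt⟩ := (IsPGroup.iff_card (p := t)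
        (G := ((P : Subgroup N).map N.subtype))).mp hTp
      rw [hkt]; exact Nat.Coprime.pow_right kt hBt)).eq_bot
  have hcomBT : ∀ q ∈ N'.map N.subtype, ∀ l ∈ (P : Subgroup N).map N.subtype, q * l = l * q :=
    fun q hq l hl => (hcomTB l hl q hq).symm
  have hcardN : Nat.card N = Nat.card (N'.map N.subtype) *
      Nat.card ((P : Subgroup N).map N.subtype) := by
    have h := ito_card_sup _ _ hcomBT hBT
    rwa [sup_comm, hTB] at h
  have hcls : ∀ y ∈ (P : Subgroup N).map N.subtype,
      (∃ z ∈ (P : Subgroup N).map N.subtype, y * z ≠ z * y) →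
      Nat.card ((P : Subgroup N).map N.subtype) =
        n * Nat.card (Cn y ⊓ (P : Subgroup N).map N.subtype : Subgroup G) := by
    intro y hy ⟨z, hz, hyz⟩
    have hyN : y ∈ N := hTN hy
    rcases hdec.cls y hyN with h | h
    · exfalso
      have heq : Cn y ⊓ N = N := Subgroup.eq_of_le_of_card_ge inf_le_right h.le
      have hle : N ≤ Cn y := inf_eq_right.mp heq
      exact hyz (Subgroup.mem_centralizer_singleton_iff.mp (hle (hTN hz))).symm
    · have hnorm : ∀ l ∈ (P : Subgroup N).map N.subtype, ∀ q ∈ N'.map N.subtype,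
          l * q * l⁻¹ ∈ N'.map N.subtype := by
        intro l hl q hq
        have h3 : l * q * l⁻¹ = q := by rw [hcomTB l hl q hq]; group
        rw [h3]; exact hq
      have h1 := Cfsg.Agent.Lib.Helper10.CS3.pkgCent _ _ hnorm hBT y hy
      have hBle : N'.map N.subtype ≤ Subgroup.centralizer ({y} : Set G) := fun b hb =>
        Subgroup.mem_centralizer_singleton_iff.mpr (hcomBT b hb y hy)
      rw [sup_comm, hTB, inf_eq_right.mpr hBle] at h1
      have h4 : Nat.card (Cn y ⊓ N : Subgroup G) = Nat.card (N'.map N.subtype) *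
          Nat.card (Cn y ⊓ (P : Subgroup N).map N.subtype : Subgroup G) := h1
      rw [hcardN, h4] at h
      exact Nat.eq_of_mul_eq_mul_left (Nat.card_pos : 0 < Nat.card (N'.map N.subtype))
        (by rw [h]; ring)
  exact ⟨t, (P : Subgroup N).map N.subtype, N'.map N.subtype,
    ⟨htp', ⟨e, hne⟩, fun x hx y hy => hdec.comm x hx y (hTN hy),
      fun x hx y hy => hdec.comm x hx y (hBN hy), hcomTB, hBab,
      by rw [sup_assoc, hTB]; exact hdec.sup, hdec.pS, hTp, hBt,
      Nat.Coprime.coprime_dvd_left (Subgroup.card_dvd_of_le hBN) hdec.cop, hsylT, hnabT, hcls⟩⟩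

end Cfsg.Agent.Lib.Helper5.CS3
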